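import Mathlib

set_option autoImplicit false
set_option linter.unusedSectionVars false
set_option linter.unusedVariables false

/-!
Kernels of powers of `f - 1` and the vanishing of `1 + f + ... + f ^ (N - 1)`.
-/

namespace Cfsg.Agent.Lib.SpEight.Kernel

open Module Polynomial

variable {F V : Type*} [Field F] [AddCommGroup V] [Module F V] [FiniteDimensional F V]

/-- Stabilisation of the kernels of powers. -/
theorem ker_stable (f : End F V) {L μ : ℕ} (hL : 1 ≤ L)
    (hμ : finrank F (LinearMap.ker ((f - 1 : End F V) ^ L)) ≤ μ)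
    (hcase : μ < L ∨ (μ ≤ L ∧ finrank F (LinearMap.ker (f - 1)) ≠ 1)) (v : V)
    (hv : ((f - 1) ^ L) v = 0) : ((f - 1) ^ (L - 1)) v = 0 := by
  by_contra hne
  set n := f - 1 with hn
  have hstep : ∀ j, j < L → finrank F (LinearMap.ker (n ^ j)) + 1 ≤ finrank F (LinearMap.ker (n ^ (j + 1))) := by
    intro j hj
    apply Nat.succ_le_of_lt
    apply Submodule.finrank_lt_finrank_of_lt
    refine lt_of_le_of_ne ?_ ?_
    · intro x hx
      rw [LinearMap.mem_ker] at hx ⊢
      rw [pow_succ', Module.End.mul_apply, hx, map_zero]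
    · intro h
      set u := (n ^ (L - 1 - j)) v with hu
      have h1 : (n ^ (j + 1)) u = 0 := by
        rw [hu, ← Module.End.mul_apply, ← pow_add]
        have : j + 1 + (L - 1 - j) = L := by omega
        rw [this, hv]
      have h2 : u ∈ LinearMap.ker (n ^ j) := by
        rw [h, LinearMap.mem_ker]
        exact h1
      rw [LinearMap.mem_ker, hu, ← Module.End.mul_apply, ← pow_add] at h2
      have : j + (L - 1 - j) = L - 1 := by omega
      rw [this] at h2
      exact hne h2
  have hchain : ∀ j, 1 ≤ j → j ≤ L → finrank F (LinearMap.ker (n ^ 1)) + (j - 1) ≤ finrank F (LinearMap.ker (n ^ j)) := by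
    intro j hj
    induction j, hj using Nat.le_induction with
    | base => intro _; exact le_rfl
    | succ j hj ih =>
      intro hjL
      have h1 := ih (by omega)
      have h2 := hstep j (by omega)
      omega
  have h1 := hchain L hL le_rfl
  have h0 := hstep 0 (by omega)
  rw [pow_zero, zero_add] at h0
  have h3 : finrank F (LinearMap.ker (1 : End F V)) = 0 := by
    have : LinearMap.ker (1 : End F V) = ⊥ := LinearMap.ker_id
    rw [this, finrank_bot]
  rw [h3] at h0
  rw [pow_one] at h1 h0
  rcases hcase with h | ⟨h, h'⟩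
  · omega
  · omega

/-- If the kernels stabilise then the geometric sum vanishes. -/
theorem geom_zero [CharP F 2] (f : End F V) {a m : ℕ} (hf : f ^ (2 ^ a * m) = 1)
    (hstab : ∀ v, ((f - 1 : End F V) ^ (2 ^ a) : End F V) v = 0 → ((f - 1 : End F V) ^ (2 ^ a - 1) : End F V) v = 0) (v : V) :
    ∑ i ∈ Finset.range (2 ^ a * m), (f ^ i) v = 0 := by
  haveI := Fact.mk Nat.prime_two
  set L := 2 ^ a with hL
  have hL1 : 1 ≤ L := Nat.one_le_two_pow
  set R : F[X] := ∑ i ∈ Finset.range m, X ^ i with hR
  set P : F[X] := ∑ i ∈ Finset.range (L * m), X ^ i with hP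
  have hX : (X - 1 : F[X]) ≠ 0 := by
    intro h
    have := congrArg natDegree h
    rw [show (X - 1 : F[X]) = X - C 1 by simp, natDegree_X_sub_C] at this
    simp at this
  have h1 : P * (X - 1) = X ^ (L * m) - 1 := geom_sum_mul X (L * m)
  have h2 : R * (X - 1) = X ^ m - 1 := geom_sum_mul X m
  have h3 : (X ^ m - 1 : F[X]) ^ L = X ^ (L * m) - 1 := by
    rw [hL, sub_pow_char_pow, one_pow, ← pow_mul, mul_comm]
  have h4 : P = (X - 1) ^ (L - 1) * R ^ L := by
    apply mul_right_cancel₀ hX
    rw [h1, ← h3, ← h2, mul_pow]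
    obtain ⟨M, hM⟩ : ∃ M, L = M + 1 := ⟨L - 1, by omega⟩
    rw [hM, Nat.add_sub_cancel, pow_succ (X - 1 : F[X]) M]
    ring
  have h5 : aeval f P = ∑ i ∈ Finset.range (L * m), f ^ i := by
    rw [hP, map_sum]
    simp only [map_pow, aeval_X]
  have h6 : aeval f (X - 1 : F[X]) = f - 1 := by simp
  set u := ((aeval f R) ^ L) v with hu
  have h7 : ((f - 1) ^ L) u = 0 := by
    rw [hu, ← Module.End.mul_apply]
    have h8 : aeval f ((X - 1) ^ L * R ^ L : F[X]) = (f - 1) ^ L * (aeval f R) ^ L := by
      rw [map_mul, map_pow, map_pow, h6]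
    rw [← h8, ← mul_pow, mul_comm, h2, h3]
    simp [hf]
  have h9 := hstab u h7
  have h10 : aeval f P = (f - 1) ^ (L - 1) * (aeval f R) ^ L := by
    rw [h4, map_mul, map_pow, map_pow, h6]
  have h11 : ∑ i ∈ Finset.range (L * m), (f ^ i) v = (aeval f P) v := by
    rw [h5, LinearMap.sum_apply]
  rw [h11, h10, Module.End.mul_apply]
  exact h9

end Cfsg.Agent.Lib.SpEight.Kernel
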