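import Mathlib
import Cfsg.Agent.Lib.SpEight.Embed
import Cfsg.Agent.Lib.SpEight.Kernel

set_option autoImplicit false
set_option linter.unusedSectionVars false
set_option linter.unusedVariables false
set_option linter.unusedSimpArgs false
set_option linter.style.haveILetI false

/-!
An isometry with even Dickson parity and non-vanishing geometric sum: twice its order divides one of
the twelve exponents.
-/

namespace Cfsg.Agent.Lib.SpEight.Key

open Module QuadraticMap Polynomial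
open Cfsg.Agent.Lib.Classical.Quad Cfsg.Agent.Lib.Classical.QuadOrders Cfsg.Agent.Lib.Classical.QuadHyp
open Cfsg.Agent.Lib.SpEight.Atoms Cfsg.Agent.Lib.SpEight.Models Cfsg.Agent.Lib.SpEight.Poly
open Cfsg.Agent.Lib.SpEight.Orders Cfsg.Agent.Lib.SpEight.Embed Cfsg.Agent.Lib.SpEight.Kernel
open Cfsg.Agent.Lib.SpSpec.Recip
open Cfsg.Agent.Lib.Classical.SympForm
open Cfsg.Agent.Lib.Orth.Spin Cfsg.Agent.Lib.Orth.Wall

universe u

/-- The natural module. -/
abbrev V8 (F : Type u) := (Fin 3 ⊕ Fin 3) ⊕ Fin 2 → F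

variable {F : Type u} [Field F]

theorem finrank_V8 : finrank F (V8 F) = 8 := by
  simp [Module.finrank_fintype_fun_eq_card]

variable [Finite F] [CharP F 2]

theorem charpoly_data {a b : F} (ha : a ≠ 0) (g : oGroup (qMinus 3 a b)) :
    ((g.1 : V8 F →ₗ[F] V8 F) : End F (V8 F)).charpoly.coeff 0 ≠ 0 ∧
      pstar ((g.1 : V8 F →ₗ[F] V8 F) : End F (V8 F)).charpoly =
        ((g.1 : V8 F →ₗ[F] V8 F) : End F (V8 F)).charpoly := by
  set A := (spEquiv (m := 4) (F := F)).symm (oToIso ha b g) with hA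
  have h1 : Matrix.toLin' (A.1 : Matrix (Fin 4 ⊕ Fin 4) (Fin 4 ⊕ Fin 4) F) =
      (embedEquiv ha).symm.conj ((g.1 : V8 F →ₗ[F] V8 F) : End F (V8 F)) := by
    apply LinearMap.ext
    intro u
    rw [Matrix.toLin'_apply, hA, spEquiv_symm_mulVec]
    rfl
  have h2 : ((g.1 : V8 F →ₗ[F] V8 F) : End F (V8 F)).charpoly =
      (A.1 : Matrix (Fin 4 ⊕ Fin 4) (Fin 4 ⊕ Fin 4) F).charpoly := by
    rw [← Matrix.charpoly_toLin', h1, LinearEquiv.charpoly_conj]
  rw [h2]
  exact pstar_charpoly A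

theorem coe_pow_apply {V : Type*} [AddCommGroup V] [Module F V] (g : V ≃ₗ[F] V) (i : ℕ) (x : V) :
    (((g : V →ₗ[F] V) : End F V) ^ i) x = (g ^ i) x := by
  induction i generalizing x with
  | zero => rfl
  | succ i ih =>
    rw [pow_succ, Module.End.mul_apply, ih, pow_succ, LinearEquiv.mul_apply]
    rfl

/-- The key estimate. -/
theorem key [Fintype F] {a b : F} (ha : a ≠ 0) (g : V8 F ≃ₗ[F] V8 F)
    (hg : ∀ x, qMinus 3 a b (g x) = qMinus 3 a b x) (hrp : rp g = 0) (v : V8 F)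
    (hv : ∑ i ∈ Finset.range (orderOf g), (g ^ i) v ≠ 0) :
    ∃ T, IsExp (Fintype.card F) T ∧ 2 * orderOf g ∣ T := by
  classical
  haveI := finite_oGroup a b
  have hg' : g ∈ oGroup (qMinus 3 a b) := hg
  have hN0 : orderOf g ≠ 0 := by
    have h1 : orderOf (⟨g, hg'⟩ : oGroup (qMinus 3 a b)) = orderOf g := Subgroup.orderOf_mk _ _
    rw [← h1]
    exact (orderOf_pos _).ne'
  set f : End F (V8 F) := ((g : V8 F →ₗ[F] V8 F) : End F (V8 F)) with hf
  obtain ⟨h0, hs⟩ := charpoly_data ha ⟨g, hg'⟩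
  have hm : f.charpoly.Monic := LinearMap.charpoly_monic f
  have hd : f.charpoly.natDegree = 8 := by
    rw [LinearMap.charpoly_natDegree, finrank_V8]
  obtain ⟨μ, g₀, m', s, T, hχ, hng, hT, hdT, hμ, hdv⟩ := exists_exp_data hm hd h0 hs
  refine ⟨T, hT, ?_⟩
  -- Cayley-Hamilton
  have hCH : f ^ (m' * 2 ^ s) = 1 := by
    have h1 : aeval f (X ^ (m' * 2 ^ s) - 1 : F[X]) = 0 := by
      obtain ⟨k, hk⟩ := hdv
      rw [hk, map_mul, LinearMap.aeval_self_charpoly, zero_mul]
    simp only [map_sub, map_pow, aeval_X, map_one] at h1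
    exact sub_eq_zero.1 h1
  have hpow : ∀ k, f ^ k = 1 → g ^ k = 1 := by
    intro k hk
    ext x
    rw [← coe_pow_apply, ← hf, hk]
    rfl
  have hpow' : ∀ k, g ^ k = 1 → f ^ k = 1 := by
    intro k hk
    apply LinearMap.ext
    intro x
    rw [hf, coe_pow_apply, hk]
    rfl
  have hN : orderOf g ∣ m' * 2 ^ s := orderOf_dvd_of_pow_eq_one (hpow _ hCH)
  obtain ⟨t, m, hodd, hNeq⟩ := Nat.exists_eq_two_pow_mul_odd hN0
  have hmm' : m ∣ m' := by
    have h1 : m ∣ m' * 2 ^ s := (Dvd.intro_left (2 ^ t) hNeq.symm).trans hN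
    have h2 : Nat.Coprime m (2 ^ s) := Nat.Coprime.pow_right s (Nat.Coprime.symm (Nat.coprime_two_left.2 hodd))
    exact h2.dvd_of_dvd_mul_right h1
  -- root multiplicity
  have hroot : f.charpoly.rootMultiplicity 1 ≤ μ := by
    rw [Polynomial.rootMultiplicity_le_iff hm.ne_zero]
    intro h
    rw [hχ, C_1, pow_succ] at h
    have hne : (X - 1 : F[X]) ^ μ ≠ 0 := pow_ne_zero _ (by
      intro h'
      have := congrArg natDegree h'
      rw [show (X - 1 : F[X]) = X - C 1 by simp, natDegree_X_sub_C] at this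
      simp at this)
    exact hng ((mul_dvd_mul_iff_left hne).1 h)
  have hker : ∀ k, finrank F (LinearMap.ker ((f - 1 : End F (V8 F)) ^ k)) ≤ μ := by
    intro k
    have h1 := LinearMap.finrank_genEigenspace_le f 1 k
    rw [Module.End.genEigenspace_nat] at h1
    have e : (1 : F) • (1 : End F (V8 F)) = 1 := one_smul F _
    rw [e] at h1
    exact h1.trans hroot
  -- the parity of the fixed space
  have hfix : finrank F (LinearMap.ker (f - 1 : End F (V8 F))) ≠ 1 := by
    have h1 : LinearMap.ker (f - 1 : End F (V8 F)) = fixSp g := by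
      ext x
      rw [mem_fixSp, LinearMap.mem_ker]
      show g x - x = 0 ↔ _
      exact sub_eq_zero
    have h2 : rk g + finrank F (fixSp g) = 8 := by
      have := LinearMap.finrank_range_add_finrank_ker ((LinearMap.id : V8 F →ₗ[F] V8 F) - (g : V8 F →ₗ[F] V8 F))
      rw [finrank_V8] at this
      exact this
    have h3 : 2 ∣ rk g := by
      have : ((rk g : ℕ) : ZMod 2) = 0 := hrp
      exact (ZMod.natCast_eq_zero_iff _ _).1 this
    rw [h1]
    omega
  have hlt : 2 ^ t < μ := by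
    by_contra hcon
    push Not at hcon
    have hL : 1 ≤ 2 ^ t := Nat.one_le_two_pow
    have hcase : μ < 2 ^ t ∨ (μ ≤ 2 ^ t ∧ finrank F (LinearMap.ker (f - 1 : End F (V8 F))) ≠ 1) := by
      rcases lt_or_eq_of_le hcon with h | h
      · exact Or.inl h
      · exact Or.inr ⟨hcon, hfix⟩
    have hstab := ker_stable f hL (hker _) hcase
    have hf1 : f ^ (2 ^ t * m) = 1 := by
      rw [← hNeq]
      exact hpow' _ (pow_orderOf_eq_one g)
    have h3 := geom_zero f hf1 hstab v
    apply hv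
    rw [hNeq]
    rw [← h3]
    refine Finset.sum_congr rfl fun i _ => ?_
    rw [hf, coe_pow_apply]
  have hts : t < s := by
    have h1 : 2 ^ t < 2 ^ s := lt_of_lt_of_le hlt hμ
    exact (Nat.pow_lt_pow_iff_right (by norm_num)).1 h1
  refine dvd_trans ?_ hdT
  rw [hNeq, ← mul_assoc, ← pow_succ', mul_comm m']
  exact mul_dvd_mul (pow_dvd_pow 2 hts) hmm'

end Cfsg.Agent.Lib.SpEight.Key
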