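import Mathlib
import Cfsg.Agent.Lib.SpEight.Key

set_option autoImplicit false
set_option linter.unusedSectionVars false
set_option linter.unusedVariables false
set_option linter.unusedSimpArgs false
set_option linter.style.haveILetI false

/-!
Isometries with prescribed order, Dickson parity and non-vanishing geometric sum.
-/

namespace Cfsg.Agent.Lib.SpEight.Real

open Module QuadraticMap
open Cfsg.Agent.Lib.Classical.Quad Cfsg.Agent.Lib.Classical.QuadOrders Cfsg.Agent.Lib.Classical.QuadHyp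
open Cfsg.Agent.Lib.SpEight.Atoms Cfsg.Agent.Lib.SpEight.Models Cfsg.Agent.Lib.SpEight.Poly
open Cfsg.Agent.Lib.SpEight.Orders Cfsg.Agent.Lib.SpEight.Embed Cfsg.Agent.Lib.SpEight.Kernel
open Cfsg.Agent.Lib.Orth.Spin Cfsg.Agent.Lib.Orth.Wall

universe u v w

section rules

variable {F : Type u} [Field F] {V : Type v} {W : Type w} [AddCommGroup V] [Module F V]
  [AddCommGroup W] [Module F W]

/-- An isometry of order `r` and Dickson parity `ε` whose geometric sum does not vanish. -/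
def PB (Q : QuadraticForm F V) (r : ℕ) (ε : ZMod 2) : Prop :=
  ∃ g : V ≃ₗ[F] V, (∀ x, Q (g x) = Q x) ∧ orderOf g = r ∧ rp g = ε ∧
    ∃ v, ∑ i ∈ Finset.range r, (g ^ i) v ≠ 0

theorem PB.toPA {Q : QuadraticForm F V} {r : ℕ} {ε : ZMod 2} (h : PB Q r ε) : PA Q r ε := by
  obtain ⟨g, hg, ho, hε, -⟩ := h
  exact ⟨g, hg, ho, hε⟩

theorem PB.congr {Q : QuadraticForm F V} {Q' : QuadraticForm F W} (e : V ≃ₗ[F] W)
    (he : ∀ x, Q' (e x) = Q x) {r : ℕ} {ε : ZMod 2} (h : PB Q r ε) : PB Q' r ε := by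
  obtain ⟨g, hg, ho, hε, v, hv⟩ := h
  refine ⟨e.symm.trans (g.trans e), fun x => ?_, by rw [orderOf_conj, ho], ?_, e v, ?_⟩
  · show Q' (e (g (e.symm x))) = Q' x
    rw [he, hg, ← he, e.apply_symm_apply]
  · rw [← hε]
    show ((rk _ : ℕ) : ZMod 2) = ((rk g : ℕ) : ZMod 2)
    rw [rk_conj]
  · have h1 : ∑ i ∈ Finset.range r, ((e.symm.trans (g.trans e)) ^ i) (e v) =
        e (∑ i ∈ Finset.range r, (g ^ i) v) := by
      rw [map_sum]
      exact Finset.sum_congr rfl fun i _ => pow_conj_apply e g i v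
    rw [h1]
    intro h2
    exact hv (e.map_eq_zero_iff.1 h2)

/-- The product of automorphisms. -/
noncomputable def prodGL : (V ≃ₗ[F] V) × (W ≃ₗ[F] W) →* ((V × W) ≃ₗ[F] (V × W)) where
  toFun p := LinearEquiv.prodCongr p.1 p.2
  map_one' := by
    ext x <;> rfl
  map_mul' a b := by
    ext x <;> rfl

theorem prodGL_injective : Function.Injective (prodGL (F := F) (V := V) (W := W)) := by
  rintro ⟨a₁, a₂⟩ ⟨b₁, b₂⟩ h
  have h2 : ∀ x y, (a₁ x, a₂ y) = (b₁ x, b₂ y) := fun x y => DFunLike.congr_fun h (x, y)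
  refine Prod.ext ?_ ?_
  · ext x
    exact congrArg Prod.fst (h2 x 0)
  · ext x
    exact congrArg Prod.snd (h2 0 x)

theorem prodGL_apply (g₁ : V ≃ₗ[F] V) (g₂ : W ≃ₗ[F] W) (x : V × W) :
    prodGL (g₁, g₂) x = (g₁ x.1, g₂ x.2) := rfl

theorem prodGL_pow_apply (g₁ : V ≃ₗ[F] V) (g₂ : W ≃ₗ[F] W) (i : ℕ) (x : V × W) :
    (prodGL (g₁, g₂) ^ i) x = ((g₁ ^ i) x.1, (g₂ ^ i) x.2) := by
  rw [← map_pow, Prod.pow_mk]
  rfl

theorem movSp_prod (g₁ : V ≃ₗ[F] V) (g₂ : W ≃ₗ[F] W) :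
    movSp (prodGL (g₁, g₂)) = (movSp g₁).prod (movSp g₂) := by
  ext ⟨x, y⟩
  rw [mem_movSp, Submodule.mem_prod, mem_movSp, mem_movSp]
  constructor
  · rintro ⟨⟨u, v⟩, h⟩
    have h1 : (u - g₁ u, v - g₂ v) = (x, y) := h
    exact ⟨⟨u, congrArg Prod.fst h1⟩, ⟨v, congrArg Prod.snd h1⟩⟩
  · rintro ⟨⟨u, hu⟩, ⟨v, hv⟩⟩
    refine ⟨(u, v), ?_⟩
    show (u - g₁ u, v - g₂ v) = (x, y)
    rw [hu, hv]

/-- Submodule products. -/
noncomputable def subProdEquiv (p : Submodule F V) (q : Submodule F W) : (p.prod q) ≃ₗ[F] p × q where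
  toFun x := (⟨x.1.1, x.2.1⟩, ⟨x.1.2, x.2.2⟩)
  invFun x := ⟨(x.1.1, x.2.1), x.1.2, x.2.2⟩
  map_add' x y := rfl
  map_smul' c x := rfl
  left_inv x := rfl
  right_inv x := rfl

theorem rk_prod [FiniteDimensional F V] [FiniteDimensional F W] (g₁ : V ≃ₗ[F] V) (g₂ : W ≃ₗ[F] W) :
    rk (prodGL (g₁, g₂)) = rk g₁ + rk g₂ := by
  show finrank F (movSp _) = finrank F (movSp g₁) + finrank F (movSp g₂)
  rw [movSp_prod, (subProdEquiv (movSp g₁) (movSp g₂)).finrank_eq, Module.finrank_prod]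

theorem rp_prod [FiniteDimensional F V] [FiniteDimensional F W] (g₁ : V ≃ₗ[F] V) (g₂ : W ≃ₗ[F] W) :
    rp (prodGL (g₁, g₂)) = rp g₁ + rp g₂ := by
  show ((rk _ : ℕ) : ZMod 2) = ((rk g₁ : ℕ) : ZMod 2) + ((rk g₂ : ℕ) : ZMod 2)
  rw [rk_prod]
  push_cast
  rfl

theorem isom_prod {Q₁ : QuadraticForm F V} {Q₂ : QuadraticForm F W} {g₁ : V ≃ₗ[F] V} {g₂ : W ≃ₗ[F] W}
    (h₁ : ∀ x, Q₁ (g₁ x) = Q₁ x) (h₂ : ∀ x, Q₂ (g₂ x) = Q₂ x) (x : V × W) :
    (Q₁.prod Q₂) (prodGL (g₁, g₂) x) = (Q₁.prod Q₂) x := by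
  rw [prodGL_apply, prod_apply, prod_apply, h₁, h₂]

theorem pa_prod [FiniteDimensional F V] [FiniteDimensional F W] {Q₁ : QuadraticForm F V}
    {Q₂ : QuadraticForm F W} {r s : ℕ} {ε δ : ZMod 2} (h₁ : PA Q₁ r ε) (h₂ : PA Q₂ s δ) :
    PA (Q₁.prod Q₂) (Nat.lcm r s) (ε + δ) := by
  obtain ⟨g₁, hg₁, rfl, rfl⟩ := h₁
  obtain ⟨g₂, hg₂, rfl, rfl⟩ := h₂
  refine ⟨prodGL (g₁, g₂), isom_prod hg₁ hg₂, ?_, rp_prod g₁ g₂⟩
  rw [orderOf_injective _ prodGL_injective, Prod.orderOf_mk]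

/-- Sums over multiples of the period. -/
theorem geom_mul (g : V ≃ₗ[F] V) {r : ℕ} (hr : g ^ r = 1) (k : ℕ) (v : V) :
    ∑ i ∈ Finset.range (r * k), (g ^ i) v = k • ∑ i ∈ Finset.range r, (g ^ i) v := by
  induction k with
  | zero => simp
  | succ k ih =>
    rw [Nat.mul_succ, Finset.sum_range_add, ih, succ_nsmul]
    congr 1
    refine Finset.sum_congr rfl fun i _ => ?_
    rw [pow_add, pow_mul, hr, one_pow, one_mul]

theorem odd_smul [CharP F 2] {k : ℕ} (hk : Odd k) (u : V) : k • u = u := by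
  obtain ⟨j, rfl⟩ := hk
  have h2 : u + u = 0 := by
    have : (2 : F) • u = 0 := by rw [CharTwo.two_eq_zero, zero_smul]
    rwa [two_smul] at this
  rw [add_nsmul, one_nsmul, mul_nsmul, two_nsmul, h2, nsmul_zero, zero_add]

theorem PB.prod_left [CharP F 2] [FiniteDimensional F V] [FiniteDimensional F W] {Q₁ : QuadraticForm F V}
    {Q₂ : QuadraticForm F W} {r s : ℕ} {ε δ : ZMod 2} (h₁ : PB Q₁ r ε) (h₂ : PA Q₂ s δ)
    (hk : ∃ k, Odd k ∧ Nat.lcm r s = r * k) :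
    PB (Q₁.prod Q₂) (Nat.lcm r s) (ε + δ) := by
  obtain ⟨g₁, hg₁, rfl, rfl, v, hv⟩ := h₁
  obtain ⟨g₂, hg₂, rfl, rfl⟩ := h₂
  refine ⟨prodGL (g₁, g₂), isom_prod hg₁ hg₂, ?_, rp_prod g₁ g₂, (v, 0), ?_⟩
  · rw [orderOf_injective _ prodGL_injective, Prod.orderOf_mk]
  · obtain ⟨k, hkodd, hk⟩ := hk
    intro h
    have h1 := congrArg Prod.fst h
    rw [Prod.fst_sum] at h1
    simp only [prodGL_pow_apply] at h1
    rw [hk, geom_mul g₁ (pow_orderOf_eq_one g₁), odd_smul (F := F) hkodd] at h1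
    exact hv h1

theorem PB.prod_right [CharP F 2] [FiniteDimensional F V] [FiniteDimensional F W] {Q₁ : QuadraticForm F V}
    {Q₂ : QuadraticForm F W} {r s : ℕ} {ε δ : ZMod 2} (h₁ : PA Q₁ r ε) (h₂ : PB Q₂ s δ)
    (hk : ∃ k, Odd k ∧ Nat.lcm r s = s * k) :
    PB (Q₁.prod Q₂) (Nat.lcm r s) (ε + δ) := by
  have h := PB.prod_left h₂ h₁ (by rwa [Nat.lcm_comm])
  rw [Nat.lcm_comm, add_comm]
  exact h.congr (LinearEquiv.prodComm F W V) (fun x => by
    show (Q₁.prod Q₂) (x.2, x.1) = (Q₂.prod Q₁) x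
    rw [prod_apply, prod_apply, add_comm])

theorem pb_one [FiniteDimensional F V] [Nontrivial V] (Q : QuadraticForm F V) : PB Q 1 0 := by
  obtain ⟨v, hv⟩ := exists_ne (0 : V)
  refine ⟨1, fun x => rfl, orderOf_one, rp_one, v, ?_⟩
  simpa using hv

/-- The rank of an isometry with a one-dimensional fixed space. -/
theorem rk_of_fix_one [FiniteDimensional F V] {g : V ≃ₗ[F] V} {e : V} (he : e ≠ 0)
    (h : ∀ x, g x = x ↔ ∃ c : F, x = c • e) : rk g + 1 = finrank F V := by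
  have h1 := LinearMap.finrank_range_add_finrank_ker ((LinearMap.id : V →ₗ[F] V) - (g : V →ₗ[F] V))
  have h2 : fixSp g = Submodule.span F {e} := by
    ext x
    rw [mem_fixSp, h, Submodule.mem_span_singleton]
    constructor
    · rintro ⟨c, rfl⟩
      exact ⟨c, rfl⟩
    · rintro ⟨c, rfl⟩
      exact ⟨c, rfl⟩
  have h3 : finrank F (fixSp g) = 1 := by
    rw [h2, finrank_span_singleton he]
  exact h3 ▸ h1

end rules

section forms

variable {F : Type u} [Field F] [Finite F]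

theorem pa_plus_plus {k l r s : ℕ} {ε δ : ZMod 2} (h₁ : PA (qPlus k F) r ε) (h₂ : PA (qPlus l F) s δ) :
    PA (qPlus (k + l) F) (Nat.lcm r s) (ε + δ) :=
  (pa_prod h₁ h₂).congr (plusSum k l) (fun x => by rw [plusSum_isom, prod_apply])

theorem pa_minus_plus {k l r s : ℕ} {a b : F} {ε δ : ZMod 2} (h₁ : PA (qMinus k a b) r ε) (h₂ : PA (qPlus l F) s δ) :
    PA (qMinus (k + l) a b) (Nat.lcm r s) (ε + δ) :=
  (pa_prod h₁ h₂).congr (minusSum k l) (fun x => by rw [minusSum_isom, prod_apply])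

variable [CharP F 2]

theorem pb_plus_plus_l {k l r s : ℕ} {ε δ : ZMod 2} (h₁ : PB (qPlus k F) r ε) (h₂ : PA (qPlus l F) s δ)
    (hk : ∃ c, Odd c ∧ Nat.lcm r s = r * c) :
    PB (qPlus (k + l) F) (Nat.lcm r s) (ε + δ) :=
  (PB.prod_left h₁ h₂ hk).congr (plusSum k l) (fun x => by rw [plusSum_isom, prod_apply])

theorem pb_plus_plus_r {k l r s : ℕ} {ε δ : ZMod 2} (h₁ : PA (qPlus k F) r ε) (h₂ : PB (qPlus l F) s δ)
    (hk : ∃ c, Odd c ∧ Nat.lcm r s = s * c) :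
    PB (qPlus (k + l) F) (Nat.lcm r s) (ε + δ) :=
  (PB.prod_right h₁ h₂ hk).congr (plusSum k l) (fun x => by rw [plusSum_isom, prod_apply])

theorem pb_minus_plus_l {k l r s : ℕ} {a b : F} {ε δ : ZMod 2} (h₁ : PB (qMinus k a b) r ε) (h₂ : PA (qPlus l F) s δ)
    (hk : ∃ c, Odd c ∧ Nat.lcm r s = r * c) :
    PB (qMinus (k + l) a b) (Nat.lcm r s) (ε + δ) :=
  (PB.prod_left h₁ h₂ hk).congr (minusSum k l) (fun x => by rw [minusSum_isom, prod_apply])

theorem pb_minus_plus_r {k l r s : ℕ} {a b : F} {ε δ : ZMod 2} (h₁ : PA (qMinus k a b) r ε) (h₂ : PB (qPlus l F) s δ)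
    (hk : ∃ c, Odd c ∧ Nat.lcm r s = s * c) :
    PB (qMinus (k + l) a b) (Nat.lcm r s) (ε + δ) :=
  (PB.prod_right h₁ h₂ hk).congr (minusSum k l) (fun x => by rw [minusSum_isom, prod_apply])

theorem pb_bin_r {a b : F} (ha : a ≠ 0) {r s : ℕ} {ε δ : ZMod 2} (h₁ : PA (qBin a b) r ε) (h₂ : PB (qBin a b) s δ)
    (hk : ∃ c, Odd c ∧ Nat.lcm r s = s * c) :
    PB (qPlus 2 F) (Nat.lcm r s) (ε + δ) := by
  have hdim : finrank F ((Fin 2 → F) × (Fin 2 → F)) = finrank F (Fin 2 ⊕ Fin 2 → F) := by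
    simp [Module.finrank_prod, Module.finrank_fintype_fun_eq_card]
  exact (PB.prod_right h₁ h₂ hk).congr
    (LinearMap.linearEquivOfInjective (binSumLin a b) (binSumLin_injective ha) hdim) (fun x => by
      rw [LinearMap.linearEquivOfInjective_apply, binSumLin_isom, prod_apply])

theorem pa_of_bin {a b : F} {r : ℕ} {ε : ZMod 2} (h : PA (qBin a b) r ε) : PA (qMinus 0 a b) r ε := by
  refine h.congr ((sumZero (qBin a b)).symm.trans (minusEquiv 0 F).symm) (fun x => ?_)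
  rw [LinearEquiv.trans_apply, ← qMinus_apply, LinearEquiv.apply_symm_apply, ← sumZero_isom,
    LinearEquiv.apply_symm_apply]

theorem pa_to_bin {a b : F} {r : ℕ} {ε : ZMod 2} (h : PA (qMinus 0 a b) r ε) : PA (qBin a b) r ε := by
  refine h.congr ((minusEquiv 0 F).trans (sumZero (qBin a b))) (fun x => ?_)
  rw [LinearEquiv.trans_apply, sumZero_isom, qMinus_apply]

/-- The swap on a hyperbolic plane. -/
theorem pb_swap : PB (qPlus 1 F) 2 1 := by
  classical
  let g : (Fin 1 ⊕ Fin 1 → F) ≃ₗ[F] (Fin 1 ⊕ Fin 1 → F) :=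
    LinearEquiv.funCongrLeft F F (Equiv.sumComm (Fin 1) (Fin 1))
  have hg : ∀ x s, g x s = x (Sum.swap s) := fun x s => rfl
  have hg2 : g * g = 1 := by
    ext v s
    rcases s with i | i <;> rfl
  have hne : g ≠ 1 := by
    intro h
    have h1 := DFunLike.congr_fun h (Pi.single (Sum.inl 0) 1)
    have h2 := congrFun h1 (Sum.inl 0)
    rw [hg] at h2
    simp at h2
  refine ⟨g, fun x => ?_, orderOf_eq_prime (by rw [pow_two, hg2]) hne, ?_, Pi.single (Sum.inl 0) 1, ?_⟩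
  · rw [qPlus_apply, qPlus_apply]
    refine Finset.sum_congr rfl fun i _ => ?_
    rw [hg, hg, mul_comm]
    rfl
  · have h2 : finrank F (Fin 1 ⊕ Fin 1 → F) = 2 := by
      simp [Module.finrank_fintype_fun_eq_card]
    have h1 := rk_of_fix_one (g := g) (e := fun _ => 1) (fun h => (one_ne_zero : (1 : F) ≠ 0) (congrFun h (Sum.inl 0))) (fun x => by
      constructor
      · intro h
        refine ⟨x (Sum.inl 0), ?_⟩
        funext s
        rcases s with i | i
        · fin_cases i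
          simp
        · fin_cases i
          have := congrFun h (Sum.inl 0)
          rw [hg] at this
          simpa using this
      · rintro ⟨c, rfl⟩
        funext s
        rw [hg]
        rfl)
    have h3 : rk g = 1 := by omega
    show ((rk g : ℕ) : ZMod 2) = 1
    rw [h3]
    rfl
  · intro h
    have h1 := congrFun h (Sum.inl 0)
    rw [Finset.sum_range_succ, Finset.sum_range_one, pow_zero, pow_one] at h1
    simp [hg] at h1

theorem pa_tau {a b : F} (ha : a ≠ 0) : PA (qBin a b) 2 1 := by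
  have hne : tauBin a ≠ 1 := by
    intro h
    have h2 : tauBin a ![0, 1] = ![0, 1] := DFunLike.congr_fun h _
    have h3 := congrFun h2 0
    have h4 : (tauBin a ![0, 1]) 0 = a := by
      show (![0, 1] : Fin 2 → F) 0 + a * (![0, 1] : Fin 2 → F) 1 = a
      simp
    rw [h4] at h3
    exact ha (by simpa using h3)
  have hg2 : tauBin a * tauBin a = 1 := by
    ext v i
    show (tauBin a (tauBin a v)) i = v i
    exact congrFun ((tauBin a).left_inv v) i
  refine ⟨tauBin a, tauBin_mem a b, orderOf_eq_prime (by rw [pow_two, hg2]) hne, ?_⟩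
  have h2 : finrank F (Fin 2 → F) = 2 := by
    simp [Module.finrank_fintype_fun_eq_card]
  have h1 := rk_of_fix_one (g := tauBin a) (e := ![1, 0]) (fun h => (one_ne_zero : (1 : F) ≠ 0) (by simpa using congrFun h 0)) (fun x => by
    constructor
    · intro h
      refine ⟨x 0, ?_⟩
      have h0 : x 0 + a * x 1 = x 0 := congrFun h 0
      have h3 : x 1 = 0 := by
        have : a * x 1 = 0 := by linear_combination h0
        exact (mul_eq_zero.1 this).resolve_left ha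
      funext i
      fin_cases i
      · simp
      · simpa using h3
    · rintro ⟨c, rfl⟩
      funext i
      fin_cases i
      · show c • (![1, 0] : Fin 2 → F) 0 + a * (c • (![1, 0] : Fin 2 → F)) 1 = c • (![1, 0] : Fin 2 → F) 0
        simp
      · show - (c • (![1, 0] : Fin 2 → F)) 1 = (c • (![1, 0] : Fin 2 → F)) 1
        simp)
  have h3 : rk (tauBin a) = 1 := by omega
  show ((rk (tauBin a) : ℕ) : ZMod 2) = 1
  rw [h3]
  rfl

theorem pb_u4 : PB (qPlus 2 F) 4 1 := by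
  classical
  obtain ⟨g, hg, ho⟩ := exists_u4 (F := F)
  have h2 : (2 : F) = 0 := CharTwo.two_eq_zero
  have hd : finrank F (Fin 2 ⊕ Fin 2 → F) = 4 := by
    simp [Module.finrank_fintype_fun_eq_card]
  refine ⟨g, fun v => by rw [hg, u4_isom], ho, ?_, Pi.single (Sum.inr 0) 1, ?_⟩
  · have h1 := rk_of_fix_one (g := g) (e := Pi.single (Sum.inl 0) 1)
      (fun h => (one_ne_zero : (1 : F) ≠ 0) (by simpa using congrFun h (Sum.inl 0))) (fun x => by
      rw [hg]
      constructor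
      · intro h
        have e1 : x (Sum.inl 1) = 0 := by
          have := congrFun h (Sum.inl 0)
          rw [u4_inl0] at this
          linear_combination this
        have e2 : x (Sum.inr 1) = 0 := by
          have := congrFun h (Sum.inr 1)
          rw [u4_inr1] at this
          rw [← this, e1]
        have e3 : x (Sum.inr 0) = 0 := by
          have := congrFun h (Sum.inl 1)
          rw [u4_inl1, e1, e2, add_zero] at this
          exact this
        refine ⟨x (Sum.inl 0), ?_⟩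
        funext s
        rcases s with i | i <;> fin_cases i
        · simp
        · simpa using e1
        · simpa using e3
        · simpa using e2
      · rintro ⟨c, rfl⟩
        funext s
        rcases s with i | i <;> fin_cases i
        · show (c • (Pi.single (Sum.inl 0) 1 : Fin 2 ⊕ Fin 2 → F)) (Sum.inl 0) + (c • (Pi.single (Sum.inl 0) 1 : Fin 2 ⊕ Fin 2 → F)) (Sum.inl 1) = (c • (Pi.single (Sum.inl 0) 1 : Fin 2 ⊕ Fin 2 → F)) (Sum.inl 0)
          simp
        · show (c • (Pi.single (Sum.inl 0) 1 : Fin 2 ⊕ Fin 2 → F)) (Sum.inr 0) + (c • (Pi.single (Sum.inl 0) 1 : Fin 2 ⊕ Fin 2 → F)) (Sum.inr 1) = (c • (Pi.single (Sum.inl 0) 1 : Fin 2 ⊕ Fin 2 → F)) (Sum.inl 1)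
          simp
        · rfl
        · show (c • (Pi.single (Sum.inl 0) 1 : Fin 2 ⊕ Fin 2 → F)) (Sum.inl 1) = (c • (Pi.single (Sum.inl 0) 1 : Fin 2 ⊕ Fin 2 → F)) (Sum.inr 1)
          simp)
    have h3 : rk g = 3 := by omega
    show ((rk g : ℕ) : ZMod 2) = 1
    rw [h3]
    rfl
  · intro h
    have hs : ∀ v : Fin 2 ⊕ Fin 2 → F, ∑ i ∈ Finset.range 4, (g ^ i) v = v + u4 v + u4 (u4 v) + u4 (u4 (u4 v)) := by
      intro v
      have h1 : (g ^ 1) v = u4 v := by rw [pow_one, hg]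
      have h2 : (g ^ 2) v = u4 (u4 v) := by
        rw [pow_two, LinearEquiv.mul_apply, hg, hg]
      have h3 : (g ^ 3) v = u4 (u4 (u4 v)) := by
        rw [pow_succ, pow_two, LinearEquiv.mul_apply, LinearEquiv.mul_apply, hg, hg, hg]
      simp only [Finset.sum_range_succ, Finset.sum_range_zero, zero_add, pow_zero, h1, h2, h3]
      rfl
    have hc : ∀ v : Fin 2 ⊕ Fin 2 → F, (v + u4 v + u4 (u4 v) + u4 (u4 (u4 v))) (Sum.inl 0) = v (Sum.inr 0) := by
      intro v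
      simp only [Pi.add_apply, u4_inl0, u4_inl1, u4_inr0, u4_inr1]
      linear_combination (2 * v (Sum.inl 0) + 2 * v (Sum.inl 1) + v (Sum.inr 0) + v (Sum.inr 1)) * h2
    rw [hs] at h
    have h1 := congrFun h (Sum.inl 0)
    rw [hc] at h1
    simp at h1

/-- Each of the twelve exponents is realised in the semidirect product. -/
theorem real_all {a b : F}
    (hab : ∀ z₁ z₂ : F, z₁ ^ 2 + a * z₁ * z₂ + b * z₂ ^ 2 = 0 → z₁ = 0 ∧ z₂ = 0) {T : ℕ}
    (hT : IsExp (Nat.card F) T) :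
    PA (qMinus 3 a b) T 0 ∨ ∃ N, T = 2 * N ∧ PB (qMinus 3 a b) N 0 := by
  have ha : a ≠ 0 := a_ne_zero hab
  set q := Nat.card F with hq
  have hq2 : 2 ≤ q := Finite.one_lt_card
  have hev : Even q := even_card
  obtain ⟨p, hp⟩ : ∃ p, q = p + 1 := ⟨q - 1, by omega⟩
  have hpo : Odd p := by
    rcases Nat.even_or_odd p with h | h
    · exfalso
      rw [hp] at hev
      exact (Nat.not_even_iff_odd.2 h.add_one) hev
    · exact h
  have e1 : q - 1 = p := by omega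
  have e2m : q ^ 2 - 1 = (q + 1) * p := by rw [hp]; exact Nat.sub_eq_of_eq_add (by ring)
  have e3m : q ^ 3 - 1 = p * (p ^ 2 + 3 * p + 3) := by rw [hp]; exact Nat.sub_eq_of_eq_add (by ring)
  have e4m : q ^ 4 - 1 = (q ^ 2 + 1) * (q ^ 2 - 1) := by
    rw [e2m, hp]
    exact Nat.sub_eq_of_eq_add (by ring)
  have o1 : Odd (q + 1) := hev.add_one
  have o2 : Odd (q ^ 2 + 1) := (hev.pow_of_ne_zero (by norm_num)).add_one
  have o3 : Odd (q ^ 3 + 1) := (hev.pow_of_ne_zero (by norm_num)).add_one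
  have o2m : Odd (q ^ 2 - 1) := by rw [e2m]; exact o1.mul hpo
  have o3m : Odd (q ^ 3 - 1) := by
    have h : Even (q ^ 3) := hev.pow_of_ne_zero (by norm_num)
    have h1 : 1 ≤ q ^ 3 := Nat.one_le_pow _ _ (by omega)
    exact Nat.Even.sub_odd h1 h odd_one
  -- the atoms
  have T1 : PA (qMinus 0 a b) (q + 1) 0 := by
    have := pa_T (F := F) 0 hab
    simpa using this
  have T1' : PA (qBin a b) (q + 1) 0 := pa_to_bin T1
  have T2 : PA (qMinus 1 a b) (q ^ 2 + 1) 0 := pa_T (F := F) 1 hab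
  have T3 : PA (qMinus 2 a b) (q ^ 3 + 1) 0 := pa_T (F := F) 2 hab
  have T4 : PA (qMinus 3 a b) (q ^ 4 + 1) 0 := pa_T (F := F) 3 hab
  have H1 : PA (qPlus 1 F) p 0 := by
    have := pa_H (F := F) (d := 1) le_rfl
    rwa [pow_one, ← hq, e1] at this
  have H2 : PA (qPlus 2 F) (q ^ 2 - 1) 0 := pa_H (F := F) (d := 2) (by norm_num)
  have H3 : PA (qPlus 3 F) (q ^ 3 - 1) 0 := pa_H (F := F) (d := 3) (by norm_num)
  have S1 : PB (qPlus 1 F) 2 1 := pb_swap
  have τ : PA (qBin a b) 2 1 := pa_tau ha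
  have U4 : PB (qPlus 2 F) 4 1 := pb_u4
  have c2 : ∀ {x : ℕ}, Odd x → Nat.Coprime x 2 := fun {x} hx =>
    Nat.Coprime.symm (Nat.coprime_two_left.2 hx)
  have cp : ∀ {x : ℕ} (n : ℕ), Odd x → Nat.Coprime x (2 ^ n) := fun {x} n hx =>
    Nat.Coprime.pow_right n (c2 hx)
  have c4 : ∀ {x : ℕ}, Odd x → Nat.Coprime x 4 := fun {x} hx => cp 2 hx
  have c11 : (1 : ZMod 2) + 1 = 0 := by decide
  have SS : PB (qPlus 2 F) 2 0 := by
    have h := pb_plus_plus_l S1 (PB.toPA S1) ⟨1, odd_one, rfl⟩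
    rw [c11, show Nat.lcm 2 2 = 2 from rfl] at h
    exact h
  unfold IsExp at hT
  rcases hT with rfl | rfl | rfl | rfl | rfl | rfl | rfl | rfl | rfl | rfl | rfl | rfl
  · exact Or.inl T4
  · -- q⁴ - 1
    left
    have h := pa_minus_plus T2 H2
    have hc : Nat.Coprime (q ^ 2 + 1) (q ^ 2 - 1) :=
      cop_of (k := 1) (l := 1) (by rw [one_mul, one_mul, e2m, hp]; ring) o2m
    rw [hc.lcm_eq_mul, ← e4m, add_zero] at h
    exact h
  · -- (q³ + 1)(q - 1)
    left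
    have h := pa_minus_plus T3 H1
    have hc : Nat.Coprime (q ^ 3 + 1) p :=
      cop_of (k := 1) (l := q ^ 2 + q + 1) (by rw [one_mul, hp]; ring) hpo
    rw [hc.lcm_eq_mul, add_zero] at h
    rw [e1]
    exact h
  · -- (q³ - 1)(q + 1)
    left
    have h := pa_minus_plus T1 H3
    have hc : Nat.Coprime (q + 1) (q ^ 3 - 1) :=
      cop_of (k := p ^ 2 + p + 1) (l := 1) (by rw [e3m, hp]; ring) o3m
    rw [hc.lcm_eq_mul, mul_comm, add_zero] at h
    exact h
  · -- 2 (q³ + 1)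
    right
    refine ⟨q ^ 3 + 1, rfl, ?_⟩
    have h := pb_minus_plus_r T3 (pb_one (qPlus 1 F)) ⟨q ^ 3 + 1, o3, by simp⟩
    rw [Nat.lcm_one_right, add_zero] at h
    exact h
  · -- 2 (q³ - 1)
    right
    refine ⟨q ^ 3 - 1, rfl, ?_⟩
    have h := pb_minus_plus_l (pb_one (qMinus 0 a b)) H3 ⟨q ^ 3 - 1, o3m, by simp⟩
    rw [Nat.lcm_one_left, add_zero] at h
    exact h
  · -- 2 (q² + 1)(q + 1)
    right
    refine ⟨(q ^ 2 + 1) * (q + 1), rfl, ?_⟩
    have hB : PB (qPlus 2 F) (q + 1) 0 := by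
      have h := pb_bin_r ha T1' (pb_one (qBin a b)) ⟨q + 1, o1, by simp⟩
      rw [Nat.lcm_one_right, add_zero] at h
      exact h
    have hc : Nat.Coprime (q ^ 2 + 1) (q + 1) :=
      cop_of (k := 1) (l := p) (by rw [one_mul, hp]; ring) o1
    have h := pb_minus_plus_r T2 hB ⟨q ^ 2 + 1, o2, by rw [hc.lcm_eq_mul, mul_comm]⟩
    rw [hc.lcm_eq_mul, add_zero] at h
    exact h
  · -- 2 (q² + 1)(q - 1)
    right
    refine ⟨(q ^ 2 + 1) * (q - 1), rfl, ?_⟩
    have hB : PB (qPlus 2 F) p 0 := by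
      have h := pb_plus_plus_r H1 (pb_one (qPlus 1 F)) ⟨p, hpo, by simp⟩
      rw [Nat.lcm_one_right, add_zero] at h
      exact h
    have hc : Nat.Coprime (q ^ 2 + 1) p :=
      cop_of (k := 1) (l := q + 1) (by rw [one_mul, hp]; ring) hpo
    have h := pb_minus_plus_r T2 hB ⟨q ^ 2 + 1, o2, by rw [hc.lcm_eq_mul, mul_comm]⟩
    rw [hc.lcm_eq_mul, add_zero] at h
    rw [e1]
    exact h
  · -- 4 (q² + 1)
    right
    refine ⟨2 * (q ^ 2 + 1), by ring, ?_⟩
    have h := pb_minus_plus_r T2 SS ⟨q ^ 2 + 1, o2, by rw [(c2 o2).lcm_eq_mul, mul_comm]⟩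
    rw [(c2 o2).lcm_eq_mul, add_zero, mul_comm] at h
    exact h
  · -- 4 (q² - 1)
    right
    refine ⟨2 * ((q + 1) * p), by rw [e2m]; ring, ?_⟩
    have hB : PB (qPlus (1 + 2) F) (2 * p) 0 := by
      have h := pb_plus_plus_r H1 SS ⟨p, hpo, by rw [(c2 hpo).lcm_eq_mul, mul_comm]⟩
      rw [(c2 hpo).lcm_eq_mul, add_zero, mul_comm] at h
      exact h
    have hc : Nat.Coprime (q + 1) p :=
      cop_of (k := 1) (l := 1) (by rw [hp]; ring) hpo
    have hc' : Nat.Coprime (q + 1) (2 * p) := Nat.Coprime.mul_right (c2 o1) hc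
    have h := pb_minus_plus_r T1 hB ⟨q + 1, o1, by rw [hc'.lcm_eq_mul, mul_comm]⟩
    rw [hc'.lcm_eq_mul, add_zero] at h
    convert h using 1
    ring
  · -- 8 (q + 1)
    right
    refine ⟨4 * (q + 1), by ring, ?_⟩
    have hB : PB (qPlus 3 F) 4 0 := by
      have h := pb_plus_plus_l U4 (PB.toPA S1) ⟨1, odd_one, rfl⟩
      rw [c11, show Nat.lcm 4 2 = 4 from rfl] at h
      exact h
    have h := pb_minus_plus_r T1 hB ⟨q + 1, o1, by rw [(c4 o1).lcm_eq_mul, mul_comm]⟩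
    rw [(c4 o1).lcm_eq_mul, add_zero, mul_comm] at h
    exact h
  · -- 8 (q - 1)
    right
    refine ⟨4 * (q - 1), by ring, ?_⟩
    have hB : PB (qMinus 2 a b) 4 0 := by
      have h := pb_minus_plus_r (pa_of_bin τ) U4 ⟨1, odd_one, rfl⟩
      rw [c11, show Nat.lcm 2 4 = 4 from rfl] at h
      exact h
    have h := pb_minus_plus_l hB H1 ⟨p, hpo, by rw [(c4 hpo).symm.lcm_eq_mul]⟩
    rw [(c4 hpo).symm.lcm_eq_mul, add_zero] at h
    rw [e1]
    exact h

end forms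

end Cfsg.Agent.Lib.SpEight.Real
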