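import Mathlib
import Cfsg.Agent.Lib.PrimeGraph.Lift

set_option autoImplicit false
set_option linter.unusedSectionVars false
set_option linter.unusedVariables false

/-!
The semidirect product of a power of a vector space in characteristic two with a group of automorphisms:
element orders.
-/

namespace Cfsg.Agent.Lib.SpEight.Semi

open Cfsg.Agent.Lib.PrimeGraph.Lift

universe u v

variable {F : Type u} [Field F] {V : Type v} [AddCommGroup V] [Module F V]

variable (X : Subgroup (V ≃ₗ[F] V)) (n : ℕ)

/-- The diagonal action. -/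
def actX (x : X) (w : Fin n → V) : Fin n → V := fun i => x.1 (w i)

theorem actX_one (w : Fin n → V) : actX X n 1 w = w := rfl

theorem actX_mul (a b : X) (w : Fin n → V) : actX X n (a * b) w = actX X n a (actX X n b w) := rfl

theorem actX_add (s : X) (x y : Fin n → V) : actX X n s (x + y) = actX X n s x + actX X n s y := by
  funext i
  exact map_add s.1 _ _

/-- The semidirect product. -/
abbrev HH : Type _ := SD (actX X n) (actX_one X n) (actX_mul X n) (actX_add X n)

variable {X n}

theorem left_pow (h : HH X n) (k : ℕ) :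
    Multiplicative.toAdd (h ^ k).left =
      ∑ i ∈ Finset.range k, actX X n (h.right ^ i) (Multiplicative.toAdd h.left) := by
  induction k with
  | zero => rfl
  | succ k ih =>
    rw [pow_succ, left_mul, ih, Finset.sum_range_succ, right_pow]

theorem coe_pow_apply' (x : X) (i : ℕ) (v : V) : (x ^ i).1 v = (x.1 ^ i) v := by
  rw [Subgroup.coe_pow]

theorem left_pow_apply (h : HH X n) (k : ℕ) (j : Fin n) :
    (Multiplicative.toAdd (h ^ k).left) j =
      ∑ i ∈ Finset.range k, (h.right.1 ^ i) ((Multiplicative.toAdd h.left) j) := by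
  rw [left_pow, Finset.sum_apply]
  refine Finset.sum_congr rfl fun i _ => ?_
  exact coe_pow_apply' _ _ _

theorem order_eq_of_left (hX : Finite X) (h : HH X n)
    (hy : Multiplicative.toAdd (h ^ orderOf h.right).left = 0) : orderOf h = orderOf h.right := by
  have h1 : h ^ orderOf h.right = 1 := by
    apply SemidirectProduct.ext
    · apply Multiplicative.toAdd.injective
      rw [hy]
      rfl
    · rw [right_pow, pow_orderOf_eq_one]
      rfl
  apply Nat.dvd_antisymm (orderOf_dvd_of_pow_eq_one h1)
  exact orderOf_map_dvd (SemidirectProduct.rightHom (φ := actHom (actX X n) (actX_one X n) (actX_mul X n) (actX_add X n))) h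

theorem order_eq_two_mul [CharP F 2] (hX : Finite X) (h : HH X n)
    (hy : Multiplicative.toAdd (h ^ orderOf h.right).left ≠ 0) : orderOf h = 2 * orderOf h.right := by
  have h2 : ∀ w : Fin n → V, w + w = 0 := by
    intro w
    have : (2 : F) • w = 0 := by rw [CharTwo.two_eq_zero, zero_smul]
    rwa [two_smul] at this
  have hsq := sq_pow_orderOf (actX X n) (actX_one X n) (actX_mul X n) (actX_add X n) h2 h
  have ho0 : 0 < orderOf h.right := orderOf_pos _
  have h3 : orderOf h ∣ 2 * orderOf h.right := by
    apply orderOf_dvd_of_pow_eq_one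
    rw [mul_comm, pow_mul]
    exact hsq
  have h4 : orderOf h.right ∣ orderOf h :=
    orderOf_map_dvd (SemidirectProduct.rightHom (φ := actHom (actX X n) (actX_one X n) (actX_mul X n) (actX_add X n))) h
  obtain ⟨c, hc⟩ := h4
  have hc2 : c ∣ 2 := by
    have h6 : orderOf h.right * c ∣ orderOf h.right * 2 := by
      rw [← hc, mul_comm (orderOf h.right) 2]
      exact h3
    exact Nat.dvd_of_mul_dvd_mul_left ho0 h6
  rcases (Nat.dvd_prime Nat.prime_two).mp hc2 with rfl | rfl
  · exfalso
    apply hy
    have h5 : h ^ orderOf h.right = 1 := by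
      rw [mul_one] at hc
      rw [← hc]
      exact pow_orderOf_eq_one h
    rw [h5]
    rfl
  · rw [hc, mul_comm]

/-- The element with prescribed parts. -/
def mkH (x : X) (w : Fin n → V) : HH X n := ⟨Multiplicative.ofAdd w, x⟩

theorem mkH_right (x : X) (w : Fin n → V) : (mkH x w).right = x := rfl

theorem mkH_left (x : X) (w : Fin n → V) : Multiplicative.toAdd (mkH x w).left = w := rfl

/-- Cardinalities. -/
theorem card_HH_ge [Finite V] [Nontrivial V] (hX : Finite X) : n < Nat.card (HH X n) := by
  have h1 : Nat.card (HH X n) = Nat.card (Multiplicative (Fin n → V)) * Nat.card X := by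
    rw [Nat.card_congr SemidirectProduct.equivProd, Nat.card_prod]
  have h2 : Nat.card (Multiplicative (Fin n → V)) = Nat.card V ^ n := by
    show Nat.card (Fin n → V) = _
    rw [Nat.card_fun]
    simp
  have h3 : 2 ≤ Nat.card V := Finite.one_lt_card
  have h4 : n < Nat.card V ^ n := by
    calc n < 2 ^ n := Nat.lt_two_pow_self
      _ ≤ Nat.card V ^ n := Nat.pow_le_pow_left h3 n
  have h5 : 0 < Nat.card X := Nat.card_pos
  rw [h1, h2]
  nlinarith

/-- A copy of `Fin n` without any algebraic structure. -/
def FinW (n : ℕ) : Type := Fin n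

noncomputable instance (n : ℕ) : Fintype (FinW n) := inferInstanceAs (Fintype (Fin n))

/-- A finite group has a copy in `Type`. -/
theorem exists_type_model (H0 : Type*) [Group H0] [Finite H0] :
    ∃ (H : Type) (_ : Group H) (_ : Fintype H), Fintype.card H = Nat.card H0 ∧
      Set.range (orderOf : H → ℕ) = Set.range (orderOf : H0 → ℕ) := by
  let e : FinW (Nat.card H0) ≃ H0 := (Finite.equivFin H0).symm
  letI gH : Group (FinW (Nat.card H0)) := e.group
  let em : FinW (Nat.card H0) ≃* H0 := e.mulEquiv
  refine ⟨FinW (Nat.card H0), gH, inferInstance, ?_, ?_⟩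
  · exact Fintype.card_fin _
  · ext r
    constructor
    · rintro ⟨y, rfl⟩
      exact ⟨em y, MulEquiv.orderOf_eq em y⟩
    · rintro ⟨y, rfl⟩
      exact ⟨em.symm y, MulEquiv.orderOf_eq em.symm y⟩

end Cfsg.Agent.Lib.SpEight.Semi
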